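import Mathlib.RingTheory.Ideal.AssociatedPrime.Finiteness
import Mathlib.RingTheory.Ideal.AssociatedPrime.Localization
import Mathlib.RingTheory.Ideal.Operations

/-!
# Prime avoidance near a prime

`exists_or`: in a Noetherian ring, for ideals `I`, `J` and a prime `q`, either some `g ∈ I` is a
nonzerodivisor on `R/J` near `q` or some `h` which is nonzero in `(R/J)_q` is killed by `I`.
-/

set_option autoImplicit false

universe u

namespace Groth.Agent.Ega4fib.H173.Avoid

variable {R : Type u} [CommRing R]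

theorem exists_or [IsNoetherianRing R] (I J q : Ideal R) [q.IsPrime] :
    (∃ g ∈ I, ∀ x, g * x ∈ J → ∃ s ∉ q, s * x ∈ J) ∨
      (∃ h, (∀ s ∉ q, s * h ∉ J) ∧ ∀ i ∈ I, i * h ∈ J) := by
  let 𝒮 : Set (Ideal R) := {p | p ∈ associatedPrimes R (R ⧸ J) ∧ p ≤ q}
  have hfin : 𝒮.Finite := (associatedPrimes.finite R (R ⧸ J)).subset fun p hp => hp.1
  have hprime : ∀ p ∈ 𝒮, p.IsPrime := fun p hp => hp.1.1
  by_cases h : (I : Set R) ⊆ ⋃ p ∈ 𝒮, (p : Set R)
  · right
    obtain ⟨p, hp, hIp⟩ := (Ideal.subset_union_prime_finite hfin (f := id) q q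
      (fun p hp _ _ => hprime p hp)).1 h
    obtain ⟨hpp, m, hm⟩ := (isAssociatedPrime_iff (R := R)).1 hp.1
    obtain ⟨y, rfl⟩ := Ideal.Quotient.mk_surjective m
    have hmem : ∀ r : R, r ∈ p ↔ r * y ∈ J := by
      intro r
      rw [hm, Submodule.mem_colon_singleton, Submodule.mem_bot, ← Ideal.Quotient.eq_zero_iff_mem,
        map_mul]
      rfl
    exact ⟨y, fun s hs hsy => hs (hp.2 ((hmem s).2 hsy)), fun i hi => (hmem i).1 (hIp hi)⟩
  · left
    rw [Set.not_subset] at h
    obtain ⟨g, hg, hgp⟩ := h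
    refine ⟨g, hg, fun x hx => ?_⟩
    by_contra hcon
    push Not at hcon
    let M := Submodule.span R {(Ideal.Quotient.mk J x : R ⧸ J)}
    have hann : ∀ r : R, r ∈ Module.annihilator R M ↔ r * x ∈ J := by
      intro r
      rw [Submodule.mem_annihilator_span_singleton, ← Ideal.Quotient.eq_zero_iff_mem, map_mul]
      rfl
    have hle : Module.annihilator R M ≤ q := by
      intro r hr
      by_contra hrq
      exact hcon r hrq ((hann r).1 hr)
    obtain ⟨p, hp, hpq⟩ := Ideal.exists_minimalPrimes_le hle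
    have hpass : p ∈ associatedPrimes R M :=
      Module.associatedPrimes.minimalPrimes_annihilator_subset_associatedPrimes R M hp
    have hpass' : p ∈ associatedPrimes R (R ⧸ J) :=
      associatedPrimes.subset_of_injective (f := M.subtype) M.injective_subtype hpass
    refine hgp ?_
    rw [Set.mem_iUnion₂]
    exact ⟨p, ⟨hpass', hpq⟩, hp.1.2 ((hann g).2 hx)⟩

/-- Uniform denominators. -/
theorem exists_uniform [IsNoetherianRing R] (J₁ J q : Ideal R) [q.IsPrime]
    (h : ∀ x ∈ J₁, ∃ s ∉ q, s * x ∈ J) : ∃ s ∉ q, ∀ x ∈ J₁, s * x ∈ J := by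
  obtain ⟨t, ht⟩ := (IsNoetherian.noetherian J₁ : J₁.FG)
  have key : ∀ t : Finset R, (∀ x ∈ t, ∃ s ∉ q, s * x ∈ J) → ∃ s ∉ q, ∀ x ∈ t, s * x ∈ J := by
    intro t
    classical
    induction t using Finset.induction_on with
    | empty => intro _; exact ⟨1, fun h1 => Ideal.IsPrime.ne_top' ((Ideal.eq_top_iff_one q).2 h1), by simp⟩
    | insert a t ha ih =>
      intro ht
      obtain ⟨s, hs, hst⟩ := ih fun x hx => ht x (Finset.mem_insert_of_mem hx)
      obtain ⟨s', hs', hsa⟩ := ht a (Finset.mem_insert_self a t)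
      refine ⟨s * s', fun hmem => (Ideal.IsPrime.mem_or_mem ‹_› hmem).elim hs hs', fun x hx => ?_⟩
      rcases Finset.mem_insert.1 hx with rfl | hx
      · rw [mul_assoc]
        exact Ideal.mul_mem_left _ _ hsa
      · rw [mul_comm s, mul_assoc]
        exact Ideal.mul_mem_left _ _ (hst x hx)
  obtain ⟨s, hs, hst⟩ := key t fun x hx => h x (ht ▸ Ideal.subset_span hx)
  refine ⟨s, hs, fun x hx => ?_⟩
  rw [← ht] at hx
  have hle : Submodule.span R (t : Set R) ≤ Submodule.comap (LinearMap.mulLeft R s) J :=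
    Submodule.span_le.2 fun x hx => hst x hx
  exact hle hx

end Groth.Agent.Ega4fib.H173.Avoid
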