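import Groth.Agent.FlatA.GenericFree2
import Mathlib.RingTheory.Flat.Equalizer
import Mathlib.RingTheory.Flat.Localization
import Mathlib.LinearAlgebra.TensorProduct.RightExactness
import Mathlib.RingTheory.Localization.AtPrime.Basic
import Mathlib.RingTheory.TensorProduct.Basic

/-!
# Colon ideals commute with passing to nearby fibres

`exists_colon`: `A` a domain, `B` an `A`-algebra of finite type, `J ⊆ B` an ideal, `c : B`,
`J₁ = (J : c)`. There is `a ≠ 0` in `A` such that for every `A`-algebra `K` in which `a` is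
invertible the ideal `(J (B ⊗ K) : c)` is `J₁ (B ⊗ K)`; `exists_colon_localization` is the version
for localizations of `B ⊗ K` at primes.
-/

set_option autoImplicit false
open TensorProduct
universe u v w

namespace Groth.Agent.Ega4fib.H173.Colon

open Groth.Agent.FlatA.GenericFree

section

variable {R : Type*} [CommRing R] {M N P : Type*} [AddCommGroup M] [Module R M]
  [AddCommGroup N] [Module R N] [AddCommGroup P] [Module R P]

/-- Base change in stages. -/
theorem lTensor_baseChange_injective_iff {S L : Type*} [CommRing S] [Algebra R S] [CommRing L]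
    [Algebra R L] [Algebra S L] [IsScalarTower R S L] (u : M →ₗ[R] N) :
    Function.Injective (LinearMap.lTensor L (u.baseChange S)) ↔
      Function.Injective (LinearMap.lTensor L u) := by
  let e₁ := AlgebraTensorModule.cancelBaseChange R S L L M
  let e₂ := AlgebraTensorModule.cancelBaseChange R S L L N
  have key : (LinearMap.lTensor L u) ∘ e₁ = e₂ ∘ LinearMap.lTensor L (u.baseChange S) := by
    funext x
    simp only [Function.comp_apply]
    induction x with
    | zero => simp
    | add x y hx hy => simp only [map_add, hx, hy]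
    | tmul a x =>
      induction x with
      | zero => simp
      | add x y hx hy => simp only [tmul_add, map_add, hx, hy]
      | tmul b c => simp [e₁, e₂]
  rw [← Function.Injective.of_comp_iff' _ e₁.bijective, key,
    Function.Injective.of_comp_iff e₂.injective]

/-- A short exact sequence whose quotient becomes free after inverting `a` stays exact after tensoring
with any algebra in which `a` is invertible. -/
theorem lTensor_injective_of_freeAway (u : M →ₗ[R] N) (π : N →ₗ[R] P)
    (hu : Function.Injective u) (hπ : Function.Surjective π) (hex : Function.Exact u π) {a : R}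
    (ha : FreeAway R P a) (L : Type*) [CommRing L] [Algebra R L] (hL : IsUnit (algebraMap R L a)) :
    Function.Injective (LinearMap.lTensor L u) := by
  let S := Localization.Away a
  let : Algebra S L := (IsLocalization.Away.lift (S := S) a hL).toAlgebra
  have : IsScalarTower R S L := IsScalarTower.of_algebraMap_eq fun x ↦ by
    rw [RingHom.algebraMap_toAlgebra, IsLocalization.Away.lift_eq]
  rw [← lTensor_baseChange_injective_iff (S := S)]
  have hfree : Module.Free S (S ⊗[R] P) := ha.free_tensor S
  refine LinearMap.lTensor_injective_of_exact_of_flat (π.baseChange S) ?_ (u.baseChange S) ?_ ?_ L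
  · exact LinearMap.lTensor_surjective S hπ
  · exact Module.Flat.lTensor_preserves_injective_linearMap u hu
  · exact lTensor_exact S hex hπ

end

section

variable {A B : Type u} [CommRing A] [CommRing B] [Algebra A B]

/-- The kernel of `B ⊗ K → B/J ⊗ K`. -/
theorem mem_map_iff (J : Ideal B) (K : Type*) [CommRing K] [Algebra A K] (x : B ⊗[A] K) :
    x ∈ J.map (algebraMap B (B ⊗[A] K)) ↔
      Algebra.TensorProduct.map (Ideal.Quotient.mkₐ A J) (AlgHom.id A K) x = 0 := by
  have h := Algebra.TensorProduct.rTensor_ker (R := A) (C := K) (Ideal.Quotient.mkₐ A J)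
    (Ideal.Quotient.mkₐ_surjective A J)
  rw [← RingHom.mem_ker, h]
  have h2 : RingHom.ker (Ideal.Quotient.mkₐ A J) = J := Ideal.Quotient.mkₐ_ker A J
  rw [h2]
  rfl

/-- **Formation of colon ideals commutes with base change to nearby algebras.** -/
theorem exists_colon [IsDomain A] [Algebra.FiniteType A B] (J J₁ : Ideal B) (c : B)
    (h : ∀ x, c * x ∈ J ↔ x ∈ J₁) :
    ∃ a : A, a ≠ 0 ∧ ∀ (K : Type w) [CommRing K] [Algebra A K], IsUnit (algebraMap A K a) →
      ∀ x : B ⊗[A] K, algebraMap B (B ⊗[A] K) c * x ∈ J.map (algebraMap B (B ⊗[A] K)) →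
        x ∈ J₁.map (algebraMap B (B ⊗[A] K)) := by
  let uB : (B ⧸ J₁) →ₗ[B] (B ⧸ J) := Submodule.mapQ J₁ J (LinearMap.mulLeft B c)
    (fun x hx => (h x).2 hx)
  let πB : (B ⧸ J) →ₗ[B] (B ⧸ (J ⊔ Ideal.span {c})) := Submodule.factor le_sup_left
  let u := uB.restrictScalars A
  let π := πB.restrictScalars A
  have huv : ∀ b : B, u (Ideal.Quotient.mk J₁ b) = Ideal.Quotient.mk J (c * b) := fun b => rfl
  have hπv : ∀ b : B, π (Ideal.Quotient.mk J b) = Ideal.Quotient.mk _ b := fun b => rfl
  have hu : Function.Injective u := by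
    rw [injective_iff_map_eq_zero]
    intro x hx
    obtain ⟨b, rfl⟩ := Ideal.Quotient.mk_surjective x
    rw [huv, Ideal.Quotient.eq_zero_iff_mem, h] at hx
    exact Ideal.Quotient.eq_zero_iff_mem.2 hx
  have hπ : Function.Surjective π := by
    intro x
    obtain ⟨b, rfl⟩ := Ideal.Quotient.mk_surjective x
    exact ⟨Ideal.Quotient.mk J b, rfl⟩
  have hex : Function.Exact u π := by
    intro x
    obtain ⟨b, rfl⟩ := Ideal.Quotient.mk_surjective x
    rw [hπv, Ideal.Quotient.eq_zero_iff_mem]
    constructor
    · intro hb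
      obtain ⟨j, hj, y, hy, hjy⟩ := Submodule.mem_sup.1 hb
      obtain ⟨d, rfl⟩ := Ideal.mem_span_singleton'.1 hy
      refine ⟨Ideal.Quotient.mk J₁ d, ?_⟩
      rw [huv, ← hjy, map_add, Ideal.Quotient.eq_zero_iff_mem.2 hj, zero_add, mul_comm]
    · rintro ⟨y, hy⟩
      obtain ⟨d, rfl⟩ := Ideal.Quotient.mk_surjective y
      rw [huv, Ideal.Quotient.eq] at hy
      have h1 : b = -(c * d - b) + d * c := by ring
      rw [h1]
      exact Submodule.add_mem_sup (neg_mem hy) (Ideal.mem_span_singleton'.2 ⟨d, rfl⟩)
  obtain ⟨a, ha0, ha⟩ := genFree_of_finiteType.{u, u, u} (R := A) B (B ⧸ (J ⊔ Ideal.span {c}))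
  refine ⟨a, ha0, fun K _ _ hK x hx => ?_⟩
  have hinj := lTensor_injective_of_freeAway u π hu hπ hex ha K hK
  rw [mem_map_iff] at hx ⊢
  have hcomm : ∀ y : B ⊗[A] K, (LinearMap.lTensor K u) (TensorProduct.comm A (B ⧸ J₁) K
      (Algebra.TensorProduct.map (Ideal.Quotient.mkₐ A J₁) (AlgHom.id A K) y)) =
      TensorProduct.comm A (B ⧸ J) K (Algebra.TensorProduct.map (Ideal.Quotient.mkₐ A J)
        (AlgHom.id A K) (algebraMap B (B ⊗[A] K) c * y)) := by
    intro y
    induction y with
    | zero => simp
    | add x y hx hy => simp only [map_add, mul_add, hx, hy]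
    | tmul b k =>
      rw [Algebra.TensorProduct.algebraMap_apply, Algebra.TensorProduct.tmul_mul_tmul]
      simp [huv]
  have h1 := hcomm x
  rw [hx, map_zero] at h1
  have h2 := hinj (h1.trans (map_zero _).symm)
  exact (TensorProduct.comm A (B ⧸ J₁) K).map_eq_zero_iff.1 h2

/-- Version of `exists_colon` for localizations of the base change. -/
theorem exists_colon_localization [IsDomain A] [Algebra.FiniteType A B] (J J₁ : Ideal B) (c : B)
    (h : ∀ x, c * x ∈ J ↔ x ∈ J₁) :
    ∃ a : A, a ≠ 0 ∧ ∀ (K : Type w) [CommRing K] [Algebra A K], IsUnit (algebraMap A K a) →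
      ∀ (Q : Ideal (B ⊗[A] K)) [Q.IsPrime] (x : Localization.AtPrime Q),
        algebraMap (B ⊗[A] K) (Localization.AtPrime Q) (algebraMap B (B ⊗[A] K) c) * x ∈
          (J.map (algebraMap B (B ⊗[A] K))).map (algebraMap (B ⊗[A] K) (Localization.AtPrime Q)) →
        x ∈ (J₁.map (algebraMap B (B ⊗[A] K))).map
          (algebraMap (B ⊗[A] K) (Localization.AtPrime Q)) := by
  obtain ⟨a, ha0, ha⟩ := exists_colon.{u, w} (A := A) J J₁ c h
  refine ⟨a, ha0, fun K _ _ hK Q _ x hx => ?_⟩
  obtain ⟨t, s, rfl⟩ := IsLocalization.exists_mk'_eq Q.primeCompl x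
  rw [IsLocalization.mk'_mem_map_algebraMap_iff]
  rw [← IsLocalization.mk'_one (M := Q.primeCompl) (S := Localization.AtPrime Q)
    (algebraMap B (B ⊗[A] K) c), ← IsLocalization.mk'_mul,
    IsLocalization.mk'_mem_map_algebraMap_iff] at hx
  obtain ⟨s', hs', hx⟩ := hx
  refine ⟨s', hs', ha K hK _ ?_⟩
  rw [mul_left_comm]
  exact hx

end

end Groth.Agent.Ega4fib.H173.Colon
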