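import Groth.Agent.CalgA.SerreCrit
import Groth.Agent.Localalg.Depth2
import Groth.Agent.Ega4A.RegCM

/-!
# Normality and regular sequences of length two

* `mem_span_of_forall_mul_mem`: in a Noetherian normal domain `L`, if `𝔞` is contained in no prime of
  height at most one then `((f) : 𝔞) = (f)` for `f ≠ 0`;
* `isNormal_of_regular_pair`: a Noetherian local ring with a weakly regular sequence `f, g` which is
  regular outside `V(f, g)` is a normal domain.
-/

set_option autoImplicit false

universe u

open RingTheory.Sequence IsLocalRing Module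

namespace Groth.Agent.Ega4fib.H173.LocalNormal

open Groth.Agent.CalgA Groth.Agent.CalgA.SerreLocal Groth.Agent.CalgA.SerreCrit

variable {L : Type u} [CommRing L]

/-- In a Noetherian normal domain an ideal not contained in any prime of height at most one has
depth at least two. -/
theorem mem_span_of_forall_mul_mem [IsNoetherianRing L] [IsDomain L] [IsIntegrallyClosed L]
    (𝔞 : Ideal L) (h𝔞 : ∀ p : Ideal L, p.IsPrime → p.height ≤ 1 → ¬ 𝔞 ≤ p) {f h : L}
    (hf : f ≠ 0) (hh : ∀ i ∈ 𝔞, i * h ∈ Ideal.span {f}) : h ∈ Ideal.span {f} := by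
  by_contra hcon
  have hne : (Submodule.Quotient.mk h : L ⧸ Ideal.span {f}) ≠ 0 := by
    rw [Ne, Submodule.Quotient.mk_eq_zero]
    exact hcon
  obtain ⟨c, hc⟩ := exists_isAssociatedPrime_colon (A := L) hne
  set p := (⊥ : Submodule L (L ⧸ Ideal.span {f})).colon
    {c • (Submodule.Quotient.mk h : L ⧸ Ideal.span {f})} with hp
  have hmem : ∀ r : L, r ∈ p ↔ r * (c * h) ∈ Ideal.span {f} := by
    intro r
    rw [hp, Submodule.mem_colon_singleton, ← Submodule.Quotient.mk_smul,
      ← Submodule.Quotient.mk_smul, Submodule.mem_bot, Submodule.Quotient.mk_eq_zero, smul_eq_mul,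
      smul_eq_mul]
  have hap : 𝔞 ≤ p := by
    intro i hi
    rw [hmem, mul_left_comm]
    exact Ideal.mul_mem_left _ _ (hh i hi)
  refine h𝔞 p hc ?_ hap
  -- the height of `p`
  by_contra hht
  let Lp := Localization.AtPrime p
  have hdomp : IsDomain Lp := IsLocalization.isDomain_localization p.primeCompl_le_nonZeroDivisors
  have hicp : IsIntegrallyClosed Lp := isIntegrallyClosed_of_isLocalization Lp p.primeCompl
    p.primeCompl_le_nonZeroDivisors
  have hdim : ¬ ringKrullDim Lp ≤ 1 := by
    rw [IsLocalization.AtPrime.ringKrullDim_eq_height p]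
    exact_mod_cast hht
  have hdepth := two_le_depth_of_isIntegrallyClosed hdim
  have hf0 : algebraMap L Lp f ≠ 0 := by
    rw [Ne, FaithfulSMul.algebraMap_eq_zero_iff]
    exact hf
  obtain ⟨d, hd⟩ := DepthSmall.exists_eq_smul_of_two_le_depth hdepth (z := algebraMap L Lp f)
    (IsSMulRegular.of_ne_zero hf0) (a := algebraMap L Lp (c * h)) (by
      intro x hx
      obtain ⟨y, s, rfl⟩ := IsLocalization.exists_mk'_eq p.primeCompl x
      have hy : y ∈ p := (IsLocalization.AtPrime.mk'_mem_maximal_iff Lp p y s).1 hx
      rw [hmem] at hy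
      obtain ⟨e, he⟩ := Ideal.mem_span_singleton'.1 hy
      refine ⟨IsLocalization.mk' Lp e s, ?_⟩
      rw [smul_eq_mul, smul_eq_mul, ← IsLocalization.mk'_one (M := p.primeCompl) Lp (c * h),
        ← IsLocalization.mk'_one (M := p.primeCompl) Lp f, ← IsLocalization.mk'_mul,
        ← IsLocalization.mk'_mul, mul_one, one_mul, ← he, mul_comm e f])
  obtain ⟨y, s, rfl⟩ := IsLocalization.exists_mk'_eq p.primeCompl d
  rw [smul_eq_mul, ← IsLocalization.mk'_one (M := p.primeCompl) Lp f, ← IsLocalization.mk'_mul,
    one_mul, eq_comm, IsLocalization.mk'_eq_iff_eq_mul, ← map_mul] at hd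
  have hinj := FaithfulSMul.algebraMap_injective L Lp hd
  refine s.2 ((hmem s).2 ?_)
  rw [mul_comm, ← hinj]
  exact Ideal.mul_mem_right _ _ (Ideal.mem_span_singleton_self f)

/-- Transfer of weak regularity to a localization. -/
theorem isWeaklyRegular_localization {p : Ideal L} [p.IsPrime] {f g : L}
    (hf : ∀ x, f * x = 0 → x = 0) (hg : ∀ x, g * x ∈ Ideal.span {f} → x ∈ Ideal.span {f}) :
    IsWeaklyRegular (Localization.AtPrime p)
      [algebraMap L (Localization.AtPrime p) f, algebraMap L (Localization.AtPrime p) g] := by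
  have hflat : Module.Flat L (Localization.AtPrime p) := inferInstance
  have h1 : IsWeaklyRegular L [f, g] := by
    rw [isWeaklyRegular_cons_iff, isWeaklyRegular_singleton_iff]
    refine ⟨?_, ?_⟩
    · rw [isSMulRegular_iff_right_eq_zero_of_smul]
      exact hf
    · rw [isSMulRegular_iff_right_eq_zero_of_smul]
      intro x hx
      obtain ⟨x, rfl⟩ := Submodule.Quotient.mk_surjective _ x
      rw [← Submodule.Quotient.mk_smul, Submodule.Quotient.mk_eq_zero,
        Submodule.mem_smul_pointwise_iff_exists] at hx
      obtain ⟨y, -, hy⟩ := hx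
      have h2 := hg x (by
        rw [smul_eq_mul, smul_eq_mul] at hy
        rw [← hy]
        exact Ideal.mul_mem_right _ _ (Ideal.mem_span_singleton_self f))
      obtain ⟨z, hz⟩ := Ideal.mem_span_singleton'.1 h2
      rw [Submodule.Quotient.mk_eq_zero, Submodule.mem_smul_pointwise_iff_exists]
      exact ⟨z, trivial, by rw [smul_eq_mul, mul_comm]; exact hz⟩
  have h2 := h1.of_flat (S := Localization.AtPrime p)
  simpa using h2

/-- A Noetherian local ring with a weakly regular sequence `f, g`, all of whose localizations at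
primes not containing both `f` and `g` are regular, is a normal domain. -/
theorem isNormal_of_regular_pair [IsNoetherianRing L] [IsLocalRing L] {f g : L}
    (hf : ∀ x, f * x = 0 → x = 0) (hg : ∀ x, g * x ∈ Ideal.span {f} → x ∈ Ideal.span {f})
    (hreg : ∀ (p : Ideal L) [p.IsPrime], (f ∉ p ∨ g ∉ p) →
      IsRegularLocalRing (Localization.AtPrime p)) :
    IsDomain L ∧ IsIntegrallyClosed L := by
  have key : ∀ (p : Ideal L) [p.IsPrime], f ∈ p → g ∈ p →
      2 ≤ LocCoh.depth (Localization.AtPrime p) (Localization.AtPrime p) := by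
    intro p _ hfp hgp
    rw [DepthSmall.two_le_depth_iff]
    refine ⟨_, ?_, _, ?_, isWeaklyRegular_localization hf hg⟩
    · exact (IsLocalization.AtPrime.to_map_mem_maximal_iff _ p f).2 hfp
    · exact (IsLocalization.AtPrime.to_map_mem_maximal_iff _ p g).2 hgp
  have hR : LocCoh.HasRk 1 L := by
    intro p _ hp
    by_cases h : f ∈ p ∧ g ∈ p
    · exfalso
      have h1 := key p h.1 h.2
      have h2 := (Localalg.Depth2.depth_le_supportDim (R := Localization.AtPrime p)
        (Localization.AtPrime p)).trans (Module.supportDim_le_ringKrullDim _ _)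
      rw [IsLocalization.AtPrime.ringKrullDim_eq_height p, WithBot.coe_le_coe] at h2
      have h3 := (h1.trans h2).trans hp
      revert h3
      decide
    · exact hreg p (by tauto)
  have hS : LocCoh.HasSk 2 L L := by
    rw [hasSk_self_iff]
    intro p _
    by_cases h : f ∈ p ∧ g ∈ p
    · exact (min_le_left _ _).trans (key p h.1 h.2)
    · have := hreg p (by tauto)
      have h1 := Groth.Agent.Ega4A.RegCM.isCohenMacaulayLocalRing_of_isRegularLocalRing
        (Localization.AtPrime p)
      have h2 := h1.supportDim_eq_depth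
      rw [Module.supportDim_self_eq_ringKrullDim,
        IsLocalization.AtPrime.ringKrullDim_eq_height p, WithBot.coe_inj] at h2
      rw [← h2]
      exact min_le_right _ _
  have h3 := isIntegrallyClosed_of_hasRk_hasSk hR hS
  have h4 := isReduced_of_hasRk_hasSk (hasRk_of_le zero_le_one hR) (hasSk_of_le one_le_two hS)
  exact ⟨isDomain_of_isIntegrallyClosed, h3⟩

end Groth.Agent.Ega4fib.H173.LocalNormal
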