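import Groth.Agent.Ega4fib.H173.FibreLoc
import Groth.Agent.Ega4fib.H173.LocalNormal
import Groth.Agent.Ega43.GeomAt
import Mathlib.FieldTheory.IsAlgClosed.AlgebraicClosure
import Mathlib.FieldTheory.Perfect

/-!
# Geometric normality and regular sequences in the singular ideal

* `isNormal_localization`: if `f, g` lie in the singular ideal of `A → B` and are a weakly regular
  sequence on `(B ⊗ K)_Q`, then `(B ⊗ K)_Q` is a normal domain;
* `exists_normal_of_geomAtAlg`: if `A → B` is flat and geometrically normal at `q`, there are an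
  algebraically closed field `K` and a prime `Q` of `B ⊗ K` over `q` with `(B ⊗ K)_Q` a normal
  domain in which no prime of height at most one contains the singular ideal.
-/

set_option autoImplicit false
open TensorProduct CategoryTheory AlgebraicGeometry
universe u

namespace Groth.Agent.Ega4fib.H173.NormalPoint

open Groth.Agent.Ega43.GeomAt Groth.Agent.CalgA.SerreLocal

/-- The property "normal domain". -/
def PNor (R : Type u) [CommRing R] : Prop := IsDomain R ∧ IsIntegrallyClosed R

theorem isoClosed_PNor : IsoClosed.{u} (fun R _ => PNor R) := by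
  intro R S _ _ e hR
  obtain ⟨h1, h2⟩ := hR
  exact ⟨e.symm.toMulEquiv.isDomain _, IsIntegrallyClosed.of_equiv e⟩

variable {A B : Type u} [CommRing A] [CommRing B] [Algebra A B]

/-- The canonical map from `B` to the local ring of `B ⊗ K` at `Q`. -/
noncomputable abbrev iota (K : Type u) [CommRing K] [Algebra A K] (Q : Ideal (B ⊗[A] K))
    [Q.IsPrime] : B →+* Localization.AtPrime Q :=
  (algebraMap (B ⊗[A] K) (Localization.AtPrime Q)).comp (algebraMap B (B ⊗[A] K))

theorem isNoetherianRing_tensor [Algebra.FiniteType A B] (K : Type u) [Field K] [Algebra A K] :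
    IsNoetherianRing (B ⊗[A] K) := by
  have h : IsNoetherianRing (K ⊗[A] B) := Algebra.FiniteType.isNoetherianRing K (K ⊗[A] B)
  exact isNoetherianRing_of_ringEquiv (K ⊗[A] B) (Algebra.TensorProduct.comm A K B).toRingEquiv

theorem isNoetherianRing_localization [Algebra.FiniteType A B] (K : Type u) [Field K] [Algebra A K]
    (Q : Ideal (B ⊗[A] K)) [Q.IsPrime] : IsNoetherianRing (Localization.AtPrime Q) :=
  IsLocalization.isNoetherianRing Q.primeCompl _ (isNoetherianRing_tensor K)

/-- Existence of a prime of `B ⊗ K` over `q`. -/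
theorem exists_prime_over (q : Ideal B) [q.IsPrime] (K : Type u) [Field K] [Algebra A K]
    (h : RingHom.ker (algebraMap A K) = q.comap (algebraMap A B)) :
    ∃ Q : Ideal (B ⊗[A] K), Q.IsPrime ∧ Q.comap (algebraMap B (B ⊗[A] K)) = q := by
  have hpb : IsPullback
      (Spec.map (CommRingCat.ofHom (algebraMap B (B ⊗[A] K))))
      (Spec.map (CommRingCat.ofHom (Algebra.TensorProduct.includeRight (R := A) (A := B)
        (B := K)).toRingHom))
      (Spec.map (CommRingCat.ofHom (algebraMap A B))) (Spec.map (CommRingCat.ofHom (algebraMap A K))) :=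
    isPullback_SpecMap_of_isPushout _ _ _ _ (CommRingCat.isPushout_tensorProduct A B K)
  let x : ↥(Spec (CommRingCat.of B)) := (⟨q, inferInstance⟩ : PrimeSpectrum B)
  let y : ↥(Spec (CommRingCat.of K)) := (⊥ : PrimeSpectrum K)
  have hxy : Spec.map (CommRingCat.ofHom (algebraMap A B)) x =
      Spec.map (CommRingCat.ofHom (algebraMap A K)) y := by
    apply PrimeSpectrum.ext
    change q.comap (algebraMap A B) = Ideal.comap (algebraMap A K) ⊥
    rw [← h, RingHom.ker_eq_comap_bot]
  obtain ⟨w, h1, h2⟩ := Scheme.Pullback.exists_preimage_pullback x y hxy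
  let Q : PrimeSpectrum (B ⊗[A] K) := hpb.isoPullback.inv w
  refine ⟨Q.asIdeal, Q.2, ?_⟩
  have h3 : (Spec.map (CommRingCat.ofHom (algebraMap B (B ⊗[A] K)))) (hpb.isoPullback.inv w) = x := by
    rw [← Scheme.Hom.comp_apply, hpb.isoPullback_inv_fst, h1]
  exact congrArg PrimeSpectrum.asIdeal h3

/-- A weakly regular sequence in the singular ideal forces normality. -/
theorem isNormal_localization [Algebra.FinitePresentation A B] {I : Ideal B}
    (hI : ∀ (q : Ideal B) [q.IsPrime], Algebra.IsSmoothAt A q ↔ ¬ I ≤ q)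
    (K : Type u) [Field K] [Algebra A K] (Q : Ideal (B ⊗[A] K)) [Q.IsPrime] {f g : B}
    (hfI : f ∈ I) (hgI : g ∈ I) (hf : ∀ x, iota K Q f * x = 0 → x = 0)
    (hg : ∀ x, iota K Q g * x ∈ Ideal.span {iota K Q f} → x ∈ Ideal.span {iota K Q f}) :
    PNor (Localization.AtPrime Q) := by
  have := isNoetherianRing_localization (A := A) (B := B) K Q
  refine LocalNormal.isNormal_of_regular_pair hf hg ?_
  intro p _ hp
  let Q₁ := p.comap (algebraMap (B ⊗[A] K) (Localization.AtPrime Q))
  let q₁ := Q₁.comap (algebraMap B (B ⊗[A] K))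
  have hq₁ : ¬ I ≤ q₁ := by
    intro hle
    rcases hp with h | h
    · exact h (hle hfI)
    · exact h (hle hgI)
  have h1 := (hI q₁).2 hq₁
  have h2 := FibreLoc.isRegularLocalRing_of_isSmoothAt Q₁ q₁ rfl h1
  obtain ⟨e⟩ := nonempty_localization_localization_equiv Q p
  exact IsRegularLocalRing.of_ringEquiv e

/-- Consequence of geometric normality. -/
theorem exists_normal_of_geomAtAlg [Algebra.FinitePresentation A B] {I : Ideal B}
    (hI : ∀ (q : Ideal B) [q.IsPrime], Algebra.IsSmoothAt A q ↔ ¬ I ≤ q) (q : Ideal B) [q.IsPrime]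
    (hflat : Module.Flat A (Localization.AtPrime q))
    (h : GeomAtAlg (fun R _ => PNor R) A B q) :
    ∃ (K : Type u) (_ : Field K) (_ : Algebra A K)
      (_ : RingHom.ker (algebraMap A K) = q.comap (algebraMap A B))
      (Q : Ideal (B ⊗[A] K)) (_ : Q.IsPrime),
      Q.comap (algebraMap B (B ⊗[A] K)) = q ∧ PNor (Localization.AtPrime Q) ∧
        ∀ p : Ideal (Localization.AtPrime Q), p.IsPrime → p.height ≤ 1 →
          ¬ I.map (iota K Q) ≤ p := by
  let P := q.comap (algebraMap A B)
  have hP : P.IsPrime := inferInstance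
  let K := AlgebraicClosure P.ResidueField
  have hker : RingHom.ker (algebraMap A K) = q.comap (algebraMap A B) := by
    rw [IsScalarTower.algebraMap_eq A P.ResidueField K, RingHom.ker_comp_of_injective _
      (algebraMap P.ResidueField K).injective]
    exact Ideal.ker_algebraMap_residueField P
  obtain ⟨Q, hQp, hQ⟩ := exists_prime_over q K hker
  refine ⟨K, inferInstance, inferInstance, hker, Q, hQp, hQ, h K Q hQ, ?_⟩
  intro p hp hht hle
  have := isNoetherianRing_localization (A := A) (B := B) K Q
  have hnor := h K Q hQ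
  obtain ⟨hd, hic⟩ := hnor
  -- the localization at `p` is regular
  have hdp : IsDomain (Localization.AtPrime p) :=
    IsLocalization.isDomain_localization p.primeCompl_le_nonZeroDivisors
  have hicp : IsIntegrallyClosed (Localization.AtPrime p) :=
    isIntegrallyClosed_of_isLocalization _ p.primeCompl p.primeCompl_le_nonZeroDivisors
  have hreg : IsRegularLocalRing (Localization.AtPrime p) := by
    apply isRegularLocalRing_of_isIntegrallyClosed
    rw [IsLocalization.AtPrime.ringKrullDim_eq_height p]
    exact_mod_cast hht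
  let Q₁ := p.comap (algebraMap (B ⊗[A] K) (Localization.AtPrime Q))
  let q₁ := Q₁.comap (algebraMap B (B ⊗[A] K))
  obtain ⟨e⟩ := nonempty_localization_localization_equiv Q p
  have hreg₁ : IsRegularLocalRing (Localization.AtPrime Q₁) :=
    IsRegularLocalRing.of_ringEquiv e.symm
  have hQ₁ : Q₁ ≤ Q := by
    intro x hx
    by_contra hxQ
    have hu := IsLocalization.map_units (Localization.AtPrime Q) (⟨x, hxQ⟩ : Q.primeCompl)
    exact hp.ne_top (Ideal.eq_top_of_isUnit_mem _ hx hu)
  have hq₁ : q₁ ≤ q := by
    intro x hx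
    rw [← hQ]
    exact hQ₁ hx
  have hflat₁ := FibreLoc.flat_of_le q q₁ hq₁ hflat
  have hsm := FibreLoc.isSmoothAt_of_isRegularLocalRing Q₁ q₁ rfl hflat₁ hreg₁
  refine (hI q₁).1 hsm ?_
  intro i hi
  exact hle (Ideal.mem_map_of_mem _ hi)

end Groth.Agent.Ega4fib.H173.NormalPoint
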