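import Groth.Agent.Ega4fib.H173.Colon
import Groth.Agent.Ega4fib.H173.Avoid
import Groth.Agent.Ega4fib.H173.NormalPoint

/-!
# The dichotomy for geometric normality

For a domain `A`, an `A`-algebra `B` of finite type (`A` Noetherian) and a prime `q` of `B` over the
generic point of `A`, geometric normality of the fibre is constant on `V(q) ∩ D(b)` for some `b ∉ q`.
-/

set_option autoImplicit false
open TensorProduct
universe u

namespace Groth.Agent.Ega4fib.H173.Dichotomy

open Groth.Agent.Ega43.GeomAt Groth.Agent.Ega4fib.H173.NormalPoint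

variable {A B : Type u} [CommRing A] [CommRing B] [Algebra A B]

/-- The colon ideal `(J : c)`. -/
def col (J : Ideal B) (c : B) : Ideal B := Submodule.comap (LinearMap.mulLeft B c) J

theorem mem_col {J : Ideal B} {c x : B} : x ∈ col J c ↔ c * x ∈ J := Iff.rfl

theorem exists_col [IsDomain A] [Algebra.FiniteType A B] (J : Ideal B) (c : B) :
    ∃ a : A, a ≠ 0 ∧ ∀ (K : Type u) [Field K] [Algebra A K], algebraMap A K a ≠ 0 →
      ∀ (Q : Ideal (B ⊗[A] K)) [Q.IsPrime] (x : Localization.AtPrime Q),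
        iota K Q c * x ∈ J.map (iota K Q) → x ∈ (col J c).map (iota K Q) := by
  obtain ⟨a, ha, h⟩ := Colon.exists_colon_localization.{u, u} (A := A) J (col J c) c
    (fun x => mem_col.symm)
  refine ⟨a, ha, fun K _ _ hK Q _ x hx => ?_⟩
  rw [← Ideal.map_map] at hx ⊢
  exact h K (isUnit_iff_ne_zero.2 hK) Q x hx

theorem algebraMap_ne_zero (K : Type u) [Field K] [Algebra A K] (Q : Ideal (B ⊗[A] K))
    (a : A) (ha : algebraMap A B a ∉ Q.comap (algebraMap B (B ⊗[A] K))) :
    algebraMap A K a ≠ 0 := by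
  intro h
  apply ha
  rw [Ideal.mem_comap, ← IsScalarTower.algebraMap_apply A B (B ⊗[A] K)]
  have h1 : algebraMap A (B ⊗[A] K) a = (1 : B) ⊗ₜ[A] (algebraMap A K a) := by
    rw [Algebra.TensorProduct.algebraMap_apply, Algebra.algebraMap_eq_smul_one, smul_tmul,
      ← Algebra.algebraMap_eq_smul_one]
  rw [h1, h, tmul_zero]
  exact Q.zero_mem

theorem isUnit_iota (K : Type u) [Field K] [Algebra A K] (Q : Ideal (B ⊗[A] K)) [Q.IsPrime]
    (s : B) (hs : s ∉ Q.comap (algebraMap B (B ⊗[A] K))) : IsUnit (iota K Q s) :=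
  IsLocalization.map_units (Localization.AtPrime Q) (⟨algebraMap B _ s, hs⟩ : Q.primeCompl)

/-- Regularity at `q` spreads out. -/
theorem exists_regular [IsDomain A] [IsNoetherianRing B] [Algebra.FiniteType A B] (J J' : Ideal B)
    (c : B) (q : Ideal B) [q.IsPrime] (hq : q.comap (algebraMap A B) = ⊥)
    (h : ∀ x, c * x ∈ J → ∃ s ∉ q, s * x ∈ J') :
    ∃ b ∉ q, ∀ (K : Type u) [Field K] [Algebra A K] (Q : Ideal (B ⊗[A] K)) [Q.IsPrime],
      b ∉ Q.comap (algebraMap B (B ⊗[A] K)) → ∀ x : Localization.AtPrime Q,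
        iota K Q c * x ∈ J.map (iota K Q) → x ∈ J'.map (iota K Q) := by
  obtain ⟨a, ha, hcol⟩ := exists_col (A := A) J c
  obtain ⟨s, hs, hsJ⟩ := Avoid.exists_uniform (col J c) J' q (fun x hx => h x hx)
  refine ⟨s * algebraMap A B a, ?_, fun K _ _ Q _ hb x hx => ?_⟩
  · intro hmem
    rcases Ideal.IsPrime.mem_or_mem ‹_› hmem with h1 | h1
    · exact hs h1
    · have h2 : a ∈ q.comap (algebraMap A B) := h1
      rw [hq] at h2
      exact ha h2
  · have hbs : s ∉ Q.comap (algebraMap B (B ⊗[A] K)) := fun h1 => hb (Ideal.mul_mem_right _ _ h1)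
    have hba : algebraMap A B a ∉ Q.comap (algebraMap B (B ⊗[A] K)) :=
      fun h1 => hb (Ideal.mul_mem_left _ _ h1)
    have h1 := hcol K (algebraMap_ne_zero K Q a hba) Q x hx
    have hu := isUnit_iota K Q s hbs
    rw [← Ideal.unit_mul_mem_iff_mem _ hu]
    have h2 : (col J c).map (iota K Q) ≤
        Submodule.comap (LinearMap.mulLeft _ (iota K Q s)) (J'.map (iota K Q)) := by
      rw [Ideal.map_le_iff_le_comap]
      intro y hy
      change iota K Q s * iota K Q y ∈ J'.map (iota K Q)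
      rw [← map_mul]
      exact Ideal.mem_map_of_mem _ (hsJ y hy)
    exact h2 h1

/-- Non-membership at `q` spreads out over `V(q)`. -/
theorem exists_notMem [IsDomain A] [Algebra.FiniteType A B] (J : Ideal B)
    (c : B) (q : Ideal B) [q.IsPrime] (hq : q.comap (algebraMap A B) = ⊥)
    (h : ∀ s ∉ q, s * c ∉ J) :
    ∃ b ∉ q, ∀ (K : Type u) [Field K] [Algebra A K] (Q : Ideal (B ⊗[A] K)) [Q.IsPrime],
      b ∉ Q.comap (algebraMap B (B ⊗[A] K)) → q ≤ Q.comap (algebraMap B (B ⊗[A] K)) →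
        iota K Q c ∉ J.map (iota K Q) := by
  obtain ⟨a, ha, hcol⟩ := exists_col (A := A) J c
  refine ⟨algebraMap A B a, ?_, fun K _ _ Q _ hb hqQ hmem => ?_⟩
  · intro h1
    have h2 : a ∈ q.comap (algebraMap A B) := h1
    rw [hq] at h2
    exact ha h2
  · have h1 := hcol K (algebraMap_ne_zero K Q a hb) Q 1 (by rw [mul_one]; exact hmem)
    have h2 : (col J c).map (iota K Q) ≤ IsLocalRing.maximalIdeal (Localization.AtPrime Q) := by
      rw [Ideal.map_le_iff_le_comap]
      intro y hy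
      have hyq : y ∈ q := by
        by_contra hyq
        apply h y hyq
        rw [mul_comm]
        exact hy
      have h3 := hqQ hyq
      change algebraMap (B ⊗[A] K) (Localization.AtPrime Q) (algebraMap B (B ⊗[A] K) y) ∈
        IsLocalRing.maximalIdeal (Localization.AtPrime Q)
      rw [IsLocalization.AtPrime.to_map_mem_maximal_iff (Localization.AtPrime Q) Q]
      exact h3
    exact (IsLocalRing.maximalIdeal.isMaximal (Localization.AtPrime Q)).ne_top
      (Ideal.eq_top_of_isUnit_mem _ (h2 h1) isUnit_one)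

/-- Relations at `q` spread out. -/
theorem relation {J I : Ideal B} {c s : B} {q : Ideal B} [q.IsPrime]
    (h : ∀ i ∈ I, s * (i * c) ∈ J) (K : Type u) [Field K] [Algebra A K] (Q : Ideal (B ⊗[A] K))
    [Q.IsPrime] (hs : s ∉ Q.comap (algebraMap B (B ⊗[A] K))) :
    ∀ i ∈ I.map (iota K Q), i * iota K Q c ∈ J.map (iota K Q) := by
  have h1 : I.map (iota K Q) ≤
      Submodule.comap (LinearMap.mulLeft _ (iota K Q c)) (J.map (iota K Q)) := by
    rw [Ideal.map_le_iff_le_comap]
    intro y hy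
    change iota K Q c * iota K Q y ∈ J.map (iota K Q)
    rw [← Ideal.unit_mul_mem_iff_mem _ (isUnit_iota K Q s hs), mul_comm (iota K Q c), ← map_mul,
      ← map_mul]
    exact Ideal.mem_map_of_mem _ (h y hy)
  intro i hi
  have := h1 hi
  rw [mul_comm]
  exact this

/-- **The dichotomy for geometric normality.** -/
theorem dichotomy [IsDomain A] [IsNoetherianRing A] [Algebra.FiniteType A B] (q : Ideal B)
    [q.IsPrime] (hq : q.comap (algebraMap A B) = ⊥) :
    ∃ b ∉ q,
      (∀ r : Ideal B, r.IsPrime → q ≤ r → b ∉ r → GeomAtAlg (fun R _ => PNor R) A B r) ∨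
      (∀ r : Ideal B, r.IsPrime → q ≤ r → b ∉ r → ¬ GeomAtAlg (fun R _ => PNor R) A B r) := by
  have hBn : IsNoetherianRing B := Algebra.FiniteType.isNoetherianRing A B
  have hfp : Algebra.FinitePresentation A B := Algebra.FinitePresentation.of_finiteType.1 inferInstance
  obtain ⟨I, hI⟩ := FibreLoc.exists_singIdeal A B
  obtain ⟨a₀, ha₀, hflat⟩ := FibreLoc.exists_flat_localization (A := A) (B := B)
  have hqmul : ∀ x y : B, x ∉ q → y ∉ q → x * y ∉ q := fun x y hx hy h =>
    (Ideal.IsPrime.mem_or_mem ‹_› h).elim hx hy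
  have ha₀q : algebraMap A B a₀ ∉ q := by
    intro h1
    have h2 : a₀ ∈ q.comap (algebraMap A B) := h1
    rw [hq] at h2
    exact ha₀ h2
  rcases Avoid.exists_or I ⊥ q with ⟨f, hfI, hf⟩ | ⟨h, hh1, hh2⟩
  · obtain ⟨b₁, hb₁, hb₁'⟩ := exists_regular (A := A) ⊥ ⊥ f q hq hf
    rcases Avoid.exists_or I (Ideal.span {f}) q with ⟨g, hgI, hg⟩ | ⟨h, hh1, hh2⟩
    · -- positive case
      obtain ⟨b₂, hb₂, hb₂'⟩ := exists_regular (A := A) _ _ g q hq hg
      refine ⟨b₁ * b₂, hqmul _ _ hb₁ hb₂, Or.inl fun r _ _ hr K _ _ Q _ hQ => ?_⟩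
      have hr₁ : b₁ ∉ Q.comap (algebraMap B (B ⊗[A] K)) := by
        rw [hQ]; exact fun h1 => hr (Ideal.mul_mem_right _ _ h1)
      have hr₂ : b₂ ∉ Q.comap (algebraMap B (B ⊗[A] K)) := by
        rw [hQ]; exact fun h1 => hr (Ideal.mul_mem_left _ _ h1)
      refine isNormal_localization hI K Q hfI hgI (fun x hx => ?_) (fun x hx => ?_)
      · have h1 := hb₁' K Q hr₁ x (by rw [hx]; exact Ideal.zero_mem _)
        rw [Ideal.map_bot] at h1
        exact h1
      · have h1 := hb₂' K Q hr₂ x (by rw [Ideal.map_span, Set.image_singleton]; exact hx)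
        rw [Ideal.map_span, Set.image_singleton] at h1
        exact h1
    · -- negative case: depth one
      obtain ⟨b₂, hb₂, hb₂'⟩ := exists_notMem (A := A) _ h q hq hh1
      refine ⟨b₁ * (b₂ * algebraMap A B a₀), hqmul _ _ hb₁ (hqmul _ _ hb₂ ha₀q),
        Or.inr fun r _ hqr hr hE => ?_⟩
      have hr₀ : algebraMap A B a₀ ∉ r := fun h1 =>
        hr (Ideal.mul_mem_left _ _ (Ideal.mul_mem_left _ _ h1))
      obtain ⟨K, _, _, hker, Q, _, hQ, hnor, hht⟩ :=
        exists_normal_of_geomAtAlg hI r (hflat r hr₀) hE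
      have hr₁ : b₁ ∉ Q.comap (algebraMap B (B ⊗[A] K)) := by
        rw [hQ]; exact fun h1 => hr (Ideal.mul_mem_right _ _ h1)
      have hr₂ : b₂ ∉ Q.comap (algebraMap B (B ⊗[A] K)) := by
        rw [hQ]; exact fun h1 => hr (Ideal.mul_mem_left _ _ (Ideal.mul_mem_right _ _ h1))
      have h1 := hb₂' K Q hr₂ (by rw [hQ]; exact hqr)
      have hone : (1 : B) ∉ Q.comap (algebraMap B (B ⊗[A] K)) := fun h2 => by
        rw [hQ] at h2
        exact (inferInstance : r.IsPrime).ne_top ((Ideal.eq_top_iff_one r).2 h2)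
      have h2 := relation (A := A) (J := Ideal.span {f}) (I := I) (c := h) (s := 1) (q := q)
        (fun i hi => by rw [one_mul]; exact hh2 i hi) K Q hone
      have := isNoetherianRing_localization (A := A) (B := B) K Q
      obtain ⟨hd, hic⟩ := hnor
      have hf0 : iota K Q f ≠ 0 := by
        intro h0
        have h3 := hb₁' K Q hr₁ 1 (by rw [h0, zero_mul]; exact Ideal.zero_mem _)
        rw [Ideal.map_bot] at h3
        exact one_ne_zero h3
      rw [Ideal.map_span, Set.image_singleton] at h1 h2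
      exact h1 (LocalNormal.mem_span_of_forall_mul_mem (I.map (iota K Q)) hht hf0 h2)
  · -- negative case: depth zero
    obtain ⟨b₂, hb₂, hb₂'⟩ := exists_notMem (A := A) _ h q hq hh1
    refine ⟨b₂ * algebraMap A B a₀, hqmul _ _ hb₂ ha₀q, Or.inr fun r _ hqr hr hE => ?_⟩
    have hr₀ : algebraMap A B a₀ ∉ r := fun h1 => hr (Ideal.mul_mem_left _ _ h1)
    obtain ⟨K, _, _, hker, Q, _, hQ, hnor, hht⟩ :=
      exists_normal_of_geomAtAlg hI r (hflat r hr₀) hE
    have hr₂ : b₂ ∉ Q.comap (algebraMap B (B ⊗[A] K)) := by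
      rw [hQ]; exact fun h1 => hr (Ideal.mul_mem_right _ _ h1)
    have h1 := hb₂' K Q hr₂ (by rw [hQ]; exact hqr)
    have hone : (1 : B) ∉ Q.comap (algebraMap B (B ⊗[A] K)) := fun h2 => by
      rw [hQ] at h2
      exact (inferInstance : r.IsPrime).ne_top ((Ideal.eq_top_iff_one r).2 h2)
    have h2 := relation (A := A) (J := ⊥) (I := I) (c := h) (s := 1) (q := q)
      (fun i hi => by rw [one_mul]; exact hh2 i hi) K Q hone
    rw [Ideal.map_bot] at h1 h2
    obtain ⟨hd, hic⟩ := hnor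
    have hh0 : iota K Q h ≠ 0 := h1
    refine hht ⊥ Ideal.isPrime_bot ?_ ?_
    · have : (⊥ : Ideal (Localization.AtPrime Q)).height = 0 := Ideal.height_bot
      rw [this]
      exact zero_le_one
    · intro i hi
      have h3 : i * iota K Q h = 0 := h2 i hi
      exact (mul_eq_zero.1 h3).resolve_right hh0

end Groth.Agent.Ega4fib.H173.Dichotomy
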