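import Groth.Agent.Smoothlim.SmoothDescent
import Groth.Agent.Smoothlim.StdLift
import Groth.Agent.CalgC.RegSmooth
import Groth.Agent.FlatA.GenericFree2
import Groth.Agent.Pi1C.EtLocFib
import Groth.Agent.CalgA.SerreLocal

/-!
# Smoothness and regularity of the local rings of `B ⊗ K`

For a finitely presented algebra `B` over `A`, a field `K` over `A` and a prime `Q` of `B ⊗ K`
lying over `q`: if `A → B` is smooth at `q` then `(B ⊗ K)_Q` is regular; conversely if `K` is perfect,
`B_q` is `A`-flat and `(B ⊗ K)_Q` is regular, then `A → B` is smooth at `q`.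
-/

set_option autoImplicit false
open TensorProduct
universe u

namespace Groth.Agent.Ega4fib.H173.FibreLoc

attribute [local instance] Algebra.TensorProduct.rightAlgebra

section

variable {A B K : Type u} [CommRing A] [CommRing B] [Algebra A B] [Field K] [Algebra A K]

theorem isSmoothAt_iff [Algebra.FinitePresentation A B] (Q : Ideal (B ⊗[A] K)) [Q.IsPrime]
    (q : Ideal B) [q.IsPrime] (hq : q = Q.comap (algebraMap B (B ⊗[A] K)))
    (hflat : Module.Flat A (Localization.AtPrime q)) :
    Algebra.IsSmoothAt A q ↔ Algebra.IsSmoothAt K Q :=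
  Groth.Agent.Smoothlim.SmoothDescent.isSmoothAt_iff_of_isPushout (R := A) (A := B) (R' := K)
    (A' := B ⊗[A] K) Q q hq (Or.inl hflat)

theorem finiteType_right [Algebra.FiniteType A B] : Algebra.FiniteType K (B ⊗[A] K) := by
  have h : Algebra.FiniteType K (K ⊗[A] B) := inferInstance
  let e : K ⊗[A] B ≃ₐ[K] B ⊗[A] K :=
    AlgEquiv.ofRingEquiv (f := (Algebra.TensorProduct.comm A K B).toRingEquiv) (fun k => by
      change (Algebra.TensorProduct.comm A K B) (algebraMap K (K ⊗[A] B) k) = _
      rw [Algebra.TensorProduct.algebraMap_apply, Algebra.TensorProduct.comm_tmul]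
      rfl)
  exact Algebra.FiniteType.equiv h e

/-- The local ring of `B ⊗ K` at a prime over a smooth point is regular. -/
theorem isRegularLocalRing_of_isSmoothAt [Algebra.FinitePresentation A B] (Q : Ideal (B ⊗[A] K))
    [Q.IsPrime] (q : Ideal B) [q.IsPrime] (hq : q = Q.comap (algebraMap B (B ⊗[A] K)))
    (h : Algebra.IsSmoothAt A q) : IsRegularLocalRing (Localization.AtPrime Q) := by
  have hflat : Module.Flat A (Localization.AtPrime q) :=
    Groth.Agent.Smoothlim.StdLift.flat_localization_of_isSmoothAt q
  have := (isSmoothAt_iff Q q hq hflat).1 h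
  have hft : Algebra.FiniteType K (B ⊗[A] K) := finiteType_right
  exact Groth.Agent.CalgC.RegSmooth.isRegularLocalRing_of_isSmoothAt (k := K) Q

/-- Over a perfect field, regular points of `B ⊗ K` over points of flatness are over smooth
points. -/
theorem isSmoothAt_of_isRegularLocalRing [Algebra.FinitePresentation A B] [PerfectField K]
    (Q : Ideal (B ⊗[A] K)) [Q.IsPrime] (q : Ideal B) [q.IsPrime]
    (hq : q = Q.comap (algebraMap B (B ⊗[A] K))) (hflat : Module.Flat A (Localization.AtPrime q))
    (h : IsRegularLocalRing (Localization.AtPrime Q)) : Algebra.IsSmoothAt A q := by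
  have hft : Algebra.FiniteType K (B ⊗[A] K) := finiteType_right
  rw [isSmoothAt_iff Q q hq hflat]
  exact (Groth.Agent.CalgC.RegSmooth.isSmoothAt_iff_isRegularLocalRing_of_perfectField
    (k := K) Q).2 h

/-- Flatness of a local ring passes to localizations. -/
theorem flat_of_le (q q₁ : Ideal B) [q.IsPrime] [q₁.IsPrime] (hle : q₁ ≤ q)
    (hflat : Module.Flat A (Localization.AtPrime q)) :
    Module.Flat A (Localization.AtPrime q₁) := by
  have hle' : q.primeCompl ≤ q₁.primeCompl := fun x hx hx' => hx (hle hx')
  let _ : Algebra (Localization.AtPrime q) (Localization.AtPrime q₁) :=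
    IsLocalization.localizationAlgebraOfSubmonoidLe (Localization.AtPrime q)
      (Localization.AtPrime q₁) q.primeCompl q₁.primeCompl hle'
  have : IsScalarTower B (Localization.AtPrime q) (Localization.AtPrime q₁) :=
    IsLocalization.localization_isScalarTower_of_submonoid_le (Localization.AtPrime q)
      (Localization.AtPrime q₁) q.primeCompl q₁.primeCompl hle'
  have : IsScalarTower A (Localization.AtPrime q) (Localization.AtPrime q₁) := by
    refine IsScalarTower.of_algebraMap_eq fun x => ?_
    rw [IsScalarTower.algebraMap_apply A B (Localization.AtPrime q₁),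
      IsScalarTower.algebraMap_apply B (Localization.AtPrime q) (Localization.AtPrime q₁),
      IsScalarTower.algebraMap_apply A B (Localization.AtPrime q)]
  have : IsLocalization (q₁.primeCompl.map (algebraMap B (Localization.AtPrime q)))
      (Localization.AtPrime q₁) :=
    IsLocalization.isLocalization_of_submonoid_le (Localization.AtPrime q)
      (Localization.AtPrime q₁) q.primeCompl q₁.primeCompl hle'
  have : Module.Flat (Localization.AtPrime q) (Localization.AtPrime q₁) :=
    IsLocalization.flat _ (q₁.primeCompl.map (algebraMap B (Localization.AtPrime q)))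
  exact Module.Flat.trans A (Localization.AtPrime q) _

/-- Generic flatness, at the level of local rings. -/
theorem exists_flat_localization [IsDomain A] [Algebra.FiniteType A B] :
    ∃ a : A, a ≠ 0 ∧ ∀ (q : Ideal B) [q.IsPrime], algebraMap A B a ∉ q →
      Module.Flat A (Localization.AtPrime q) := by
  obtain ⟨a, ha, hfree⟩ := FlatA.GenericFree.genFree_of_finiteType.{u, u, u} (R := A) B B
  refine ⟨a, ha, fun q _ hq => ?_⟩
  let S := Localization.Away a
  let B' := Localization.Away (algebraMap A B a)
  have h1 : Module.Free S (S ⊗[A] B) := hfree.free_tensor S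
  have h2 : Module.Flat A (S ⊗[A] B) := Module.Flat.trans A S _
  have h3 : IsLocalizedModule (Submonoid.powers a) (TensorProduct.mk A S B 1) :=
    (isLocalizedModule_iff_isBaseChange (Submonoid.powers a) S _).mpr
      (TensorProduct.isBaseChange A B S)
  have h4 : IsLocalization (Algebra.algebraMapSubmonoid B (Submonoid.powers a)) B' := by
    have : Algebra.algebraMapSubmonoid B (Submonoid.powers a) =
        Submonoid.powers (algebraMap A B a) := by
      rw [Algebra.algebraMapSubmonoid, Submonoid.map_powers]
    rw [this]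
    infer_instance
  have h5 : IsLocalizedModule (Submonoid.powers a) (IsScalarTower.toAlgHom A B B').toLinearMap :=
    isLocalizedModule_iff_isLocalization.mpr h4
  have h6 : Module.Flat A B' :=
    Module.Flat.of_linearEquiv (IsLocalizedModule.linearEquiv (Submonoid.powers a)
      (IsScalarTower.toAlgHom A B B').toLinearMap (TensorProduct.mk A S B 1))
  exact Groth.Agent.Pi1C.EtLocFib.flat_localization (A := A) (algebraMap A B a) q.primeCompl
    (by rw [Submonoid.powers_le]; exact hq)

/-- The singular ideal: an ideal of `B` whose zero locus is the non-smooth locus. -/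
theorem exists_singIdeal (A B : Type u) [CommRing A] [CommRing B] [Algebra A B]
    [Algebra.FinitePresentation A B] :
    ∃ I : Ideal B, ∀ (q : Ideal B) [q.IsPrime], Algebra.IsSmoothAt A q ↔ ¬ I ≤ q := by
  let I : Ideal B := PrimeSpectrum.vanishingIdeal ((Algebra.smoothLocus A B)ᶜ)
  have hI : PrimeSpectrum.zeroLocus (I : Set B) = (Algebra.smoothLocus A B)ᶜ := by
    rw [PrimeSpectrum.zeroLocus_vanishingIdeal_eq_closure]
    exact Algebra.isOpen_smoothLocus.isClosed_compl.closure_eq
  refine ⟨I, fun q hq => ?_⟩
  have h1 : (⟨q, hq⟩ : PrimeSpectrum B) ∈ PrimeSpectrum.zeroLocus (I : Set B) ↔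
      (⟨q, hq⟩ : PrimeSpectrum B) ∈ (Algebra.smoothLocus A B)ᶜ := by rw [hI]
  rw [PrimeSpectrum.mem_zeroLocus, Set.mem_compl_iff] at h1
  have h2 : Algebra.IsSmoothAt A q ↔ (⟨q, hq⟩ : PrimeSpectrum B) ∈ Algebra.smoothLocus A B :=
    Iff.rfl
  rw [h2, ← not_iff_not, not_not, ← h1]
  rfl

end

end Groth.Agent.Ega4fib.H173.FibreLoc
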